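import Mathlib

/-!
# An abelian permutation group is inverted by an involution

For an abelian subgroup `P` of `Equiv.Perm α`, there is an involutory permutation `t`
with `t * g * t⁻¹ = g⁻¹` for all `g ∈ P`.
-/

set_option autoImplicit false

namespace Cfsg.Agent.Lib.PermAb.Inversion

open Equiv

variable {α : Type*}

/-- A representative of the `P`-orbit of `x`. -/
noncomputable def rep (P : Subgroup (Perm α)) (x : α) : α :=
  (Quotient.mk (MulAction.orbitRel P α) x).out

lemma rep_spec (P : Subgroup (Perm α)) (x : α) : ∃ g ∈ P, g (rep P x) = x := by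
  have h : (MulAction.orbitRel P α) (rep P x) x := Quotient.mk_out (s := MulAction.orbitRel P α) x
  rw [MulAction.orbitRel_apply] at h
  obtain ⟨g, hg⟩ := h
  have hg' : (g : Perm α) x = rep P x := hg
  refine ⟨(g : Perm α)⁻¹, inv_mem g.2, ?_⟩
  rw [← hg']
  simp

lemma rep_eq (P : Subgroup (Perm α)) {g : Perm α} (hg : g ∈ P) (x : α) :
    rep P (g x) = rep P x := by
  unfold rep
  congr 1
  apply Quotient.sound
  change (MulAction.orbitRel P α) (g x) x
  rw [MulAction.orbitRel_apply]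
  exact ⟨⟨g, hg⟩, rfl⟩

/-- The inverting map. -/
noncomputable def invFun (P : Subgroup (Perm α)) (x : α) : α :=
  (Classical.choose (rep_spec P x))⁻¹ (rep P x)

lemma key (P : Subgroup (Perm α)) (hP : IsMulCommutative P) {g₁ g₂ : Perm α} (h₁ : g₁ ∈ P)
    (h₂ : g₂ ∈ P) {r : α} (h : g₁ r = g₂ r) : g₁⁻¹ r = g₂⁻¹ r := by
  have hc : Commute g₁ g₂ := by
    have := hP.is_comm.comm (⟨g₁, h₁⟩ : P) ⟨g₂, h₂⟩
    exact congrArg Subtype.val this
  have : g₁⁻¹ * g₂⁻¹ = g₂⁻¹ * g₁⁻¹ := (hc.inv_inv).eq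
  -- apply `g₂⁻¹ * g₁⁻¹` to `g₁ r = g₂ r`
  have h3 : (g₁⁻¹ * g₂⁻¹) (g₁ r) = (g₁⁻¹ * g₂⁻¹) (g₂ r) := by rw [h]
  have h4 : (g₁⁻¹ * g₂⁻¹) (g₁ r) = g₂⁻¹ r := by
    rw [this]
    simp
  have h5 : (g₁⁻¹ * g₂⁻¹) (g₂ r) = g₁⁻¹ r := by simp
  rw [← h4, ← h5, h3]

lemma invFun_eq (P : Subgroup (Perm α)) (hP : IsMulCommutative P) (x : α) {g : Perm α}
    (hg : g ∈ P) (hx : g (rep P x) = x) : invFun P x = g⁻¹ (rep P x) := by
  have hs := Classical.choose_spec (rep_spec P x)
  exact key P hP hs.1 hg (hs.2.trans hx.symm)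

lemma invFun_smul (P : Subgroup (Perm α)) (hP : IsMulCommutative P) (x : α) {h : Perm α}
    (hh : h ∈ P) : invFun P (h x) = h⁻¹ (invFun P x) := by
  obtain ⟨g, hg, hgx⟩ := rep_spec P x
  have e1 : invFun P x = g⁻¹ (rep P x) := invFun_eq P hP x hg hgx
  have e2 : invFun P (h x) = (h * g)⁻¹ (rep P (h x)) := by
    apply invFun_eq P hP (h x) (mul_mem hh hg)
    rw [rep_eq P hh, Perm.mul_apply, hgx]
  have hc : g⁻¹ * h⁻¹ = h⁻¹ * g⁻¹ := by
    have := hP.is_comm.comm (⟨g, hg⟩ : P) ⟨h, hh⟩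
    have hc' : Commute g h := congrArg Subtype.val this
    exact (hc'.inv_inv).eq
  rw [e2, e1, rep_eq P hh, mul_inv_rev, hc, Perm.mul_apply]

lemma rep_rep (P : Subgroup (Perm α)) (x : α) : rep P (rep P x) = rep P x := by
  obtain ⟨g, hg, hgx⟩ := rep_spec P x
  have h1 : rep P x = g⁻¹ x := by
    rw [eq_comm, Perm.inv_eq_iff_eq]
    exact hgx.symm
  conv_lhs => rw [h1]
  exact rep_eq P (inv_mem hg) x

lemma invFun_invFun (P : Subgroup (Perm α)) (hP : IsMulCommutative P) (x : α) :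
    invFun P (invFun P x) = x := by
  obtain ⟨g, hg, hgx⟩ := rep_spec P x
  have e1 : invFun P x = g⁻¹ (rep P x) := invFun_eq P hP x hg hgx
  have e2 : rep P (invFun P x) = rep P x := by
    rw [e1, rep_eq P (inv_mem hg), rep_rep]
  have e3 : invFun P (invFun P x) = (g⁻¹)⁻¹ (rep P (invFun P x)) := by
    apply invFun_eq P hP _ (inv_mem hg)
    rw [e2, e1]
  rw [e3, e2, inv_inv, hgx]

/-- The inverting involution as a permutation. -/
noncomputable def t (P : Subgroup (Perm α)) (hP : IsMulCommutative P) : Perm α where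
  toFun := invFun P
  invFun := invFun P
  left_inv := invFun_invFun P hP
  right_inv := invFun_invFun P hP

lemma t_apply (P : Subgroup (Perm α)) (hP : IsMulCommutative P) (x : α) :
    t P hP x = invFun P x := rfl

lemma t_sq (P : Subgroup (Perm α)) (hP : IsMulCommutative P) : t P hP * t P hP = 1 := by
  ext x
  simp [t_apply, invFun_invFun P hP]

lemma t_inv (P : Subgroup (Perm α)) (hP : IsMulCommutative P) : (t P hP)⁻¹ = t P hP :=
  inv_eq_of_mul_eq_one_left (t_sq P hP)

lemma t_conj (P : Subgroup (Perm α)) (hP : IsMulCommutative P) {g : Perm α} (hg : g ∈ P) :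
    t P hP * g * (t P hP)⁻¹ = g⁻¹ := by
  rw [t_inv]
  ext x
  simp only [Perm.mul_apply, t_apply]
  rw [invFun_smul P hP _ hg, invFun_invFun P hP]

/-- Existence statement. -/
theorem exists_inverting_involution (P : Subgroup (Perm α)) (hP : IsMulCommutative P) :
    ∃ t : Perm α, t * t = 1 ∧ ∀ g ∈ P, t * g * t⁻¹ = g⁻¹ :=
  ⟨t P hP, t_sq P hP, fun _ hg => t_conj P hP hg⟩

/-- If an element `t` of the normalizer of `P` squares into the centralizer but does not lie in
it, the index of the centralizer in the normalizer is even. -/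
theorem two_dvd_index_of_mem {G : Type*} [Group G] [Finite G] (S : Set G) (t : G)
    (ht : t ∈ Subgroup.normalizer S) (ht2 : t * t ∈ Subgroup.centralizer S)
    (ht3 : t ∉ Subgroup.centralizer S) :
    2 ∣ ((Subgroup.centralizer S).subgroupOf (Subgroup.normalizer S)).index := by
  have hN : ((Subgroup.centralizer S).subgroupOf (Subgroup.normalizer S)).Normal :=
    Subgroup.normal_subgroupOf_centralizer_normalizer S
  set K := (Subgroup.centralizer S).subgroupOf (Subgroup.normalizer S) with hK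
  let x : (Subgroup.normalizer S) ⧸ K := QuotientGroup.mk ⟨t, ht⟩
  have h1 : x ^ 2 = 1 := by
    rw [pow_two, ← QuotientGroup.mk_mul, QuotientGroup.eq_one_iff]
    rw [hK, Subgroup.mem_subgroupOf]
    exact ht2
  have h2 : x ≠ 1 := by
    intro h
    rw [QuotientGroup.eq_one_iff, hK, Subgroup.mem_subgroupOf] at h
    exact ht3 h
  have h3 : orderOf x = 2 := orderOf_eq_prime h1 h2
  rw [Subgroup.index_eq_card, ← h3]
  exact orderOf_dvd_natCard x

end Cfsg.Agent.Lib.PermAb.Inversion
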