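import Mathlib

set_option autoImplicit false

/-!
Largest abelian subgroups of symmetric and alternating groups: bounds by the orbit sizes and
explicit constructions.
-/

namespace Cfsg.Agent.Lib.PermAb.Max

open Equiv MulAction

/-- largest product of a partition -/
def f : ℕ → ℕ
  | 0 => 1
  | 1 => 1
  | 2 => 2
  | 3 => 3
  | 4 => 4
  | n + 5 => 3 * f (n + 2)

/-- largest product of a partition without parts of size two -/
def h : ℕ → ℕ
  | 0 => 1
  | 1 => 1
  | 2 => 1
  | 3 => 3
  | 4 => 4
  | 5 => 5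
  | 6 => 9
  | 7 => 12
  | 8 => 16
  | n + 9 => 3 * h (n + 6)

lemma f_mul_le (a b : ℕ) : f a * f b ≤ f (a + b) := by
  induction' hs : a + b using Nat.strong_induction_on with s ih generalizing a b
  by_cases ha : 5 ≤ a
  · obtain ⟨c, rfl⟩ := Nat.exists_eq_add_of_le' ha
    have h1 := ih (c + 2 + b) (by omega) (c + 2) b rfl
    have e1 : f (c + 5) = 3 * f (c + 2) := by rw [f]
    have e2 : f s = 3 * f (c + 2 + b) := by
      obtain rfl : s = (c + b) + 5 := by omega
      rw [f]
      congr 2 <;> omega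
    rw [e1, e2, mul_assoc]
    exact Nat.mul_le_mul_left _ h1
  · by_cases hb : 5 ≤ b
    · obtain ⟨c, rfl⟩ := Nat.exists_eq_add_of_le' hb
      have h1 := ih (a + (c + 2)) (by omega) a (c + 2) rfl
      have e1 : f (c + 5) = 3 * f (c + 2) := by rw [f]
      have e2 : f s = 3 * f (a + (c + 2)) := by
        obtain rfl : s = (a + c) + 5 := by omega
        rw [f]
        congr 2 <;> omega
      rw [e1, e2]
      calc f a * (3 * f (c + 2)) = 3 * (f a * f (c + 2)) := by ring
        _ ≤ _ := Nat.mul_le_mul_left _ h1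
    · have ha' : a < 5 := by omega
      have hb' : b < 5 := by omega
      subst hs
      interval_cases a <;> interval_cases b <;> decide

lemma le_f (a : ℕ) : a ≤ f a := by
  induction' a using Nat.strong_induction_on with a ih
  by_cases ha : 5 ≤ a
  · obtain ⟨c, rfl⟩ := Nat.exists_eq_add_of_le' ha
    have h1 := ih (c + 2) (by omega)
    have e1 : f (c + 5) = 3 * f (c + 2) := by rw [f]
    omega
  · have ha' : a < 5 := by omega
    interval_cases a <;> decide

lemma mul_f_le (o m : ℕ) : o * f m ≤ f (o + m) :=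
  (Nat.mul_le_mul_right _ (le_f o)).trans (f_mul_le o m)

lemma h_mul_le (a b : ℕ) : h a * h b ≤ h (a + b) := by
  induction' hs : a + b using Nat.strong_induction_on with s ih generalizing a b
  by_cases ha : 9 ≤ a
  · obtain ⟨c, rfl⟩ := Nat.exists_eq_add_of_le' ha
    have h1 := ih (c + 6 + b) (by omega) (c + 6) b rfl
    have e1 : h (c + 9) = 3 * h (c + 6) := by rw [h]
    have e2 : h s = 3 * h (c + 6 + b) := by
      obtain rfl : s = (c + b) + 9 := by omega
      rw [h]
      congr 2 <;> omega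
    rw [e1, e2, mul_assoc]
    exact Nat.mul_le_mul_left _ h1
  · by_cases hb : 9 ≤ b
    · obtain ⟨c, rfl⟩ := Nat.exists_eq_add_of_le' hb
      have h1 := ih (a + (c + 6)) (by omega) a (c + 6) rfl
      have e1 : h (c + 9) = 3 * h (c + 6) := by rw [h]
      have e2 : h s = 3 * h (a + (c + 6)) := by
        obtain rfl : s = (a + c) + 9 := by omega
        rw [h]
        congr 2 <;> omega
      rw [e1, e2]
      calc h a * (3 * h (c + 6)) = 3 * (h a * h (c + 6)) := by ring
        _ ≤ _ := Nat.mul_le_mul_left _ h1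
    · have ha' : a < 9 := by omega
      have hb' : b < 9 := by omega
      subst hs
      interval_cases a <;> interval_cases b <;> decide

lemma le_h (a : ℕ) (h2 : a ≠ 2) : a ≤ h a := by
  induction' a using Nat.strong_induction_on with a ih
  by_cases ha : 9 ≤ a
  · obtain ⟨c, rfl⟩ := Nat.exists_eq_add_of_le' ha
    have h1 := ih (c + 6) (by omega) (by omega)
    have e1 : h (c + 9) = 3 * h (c + 6) := by rw [h]
    omega
  · have ha' : a < 9 := by omega
    interval_cases a <;> first | decide | exact absurd rfl h2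

lemma mul_h_le (o m : ℕ) (ho : o ≠ 2) : o * h m ≤ h (o + m) :=
  (Nat.mul_le_mul_right _ (le_h o ho)).trans (h_mul_le o m)

lemma f_le_h (m : ℕ) : f m ≤ h (m + 2) := by
  induction' m using Nat.strong_induction_on with m ih
  by_cases ha : 9 ≤ m
  · obtain ⟨c, rfl⟩ := Nat.exists_eq_add_of_le' ha
    have h1 := ih (c + 6) (by omega)
    have e1 : f (c + 9) = 3 * f (c + 6) := by
      have : c + 9 = (c + 4) + 5 := by omega
      rw [this, f]
    have e2 : h (c + 9 + 2) = 3 * h (c + 6 + 2) := by
      have : c + 9 + 2 = (c + 2) + 9 := by omega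
      rw [this, h]
    omega
  · have ha' : m < 9 := by omega
    interval_cases m <;> decide

lemma f_three_mul (k : ℕ) : f (3 * k) = 3 ^ k := by
  induction' k using Nat.strong_induction_on with k ih
  match k with
  | 0 => rfl
  | 1 => rfl
  | k + 2 =>
    have e : 3 * (k + 2) = (3 * k + 1) + 5 := by ring
    rw [e, f]
    have e2 : 3 * k + 1 + 2 = 3 * (k + 1) := by ring
    rw [e2, ih (k + 1) (by omega)]
    ring

lemma f_three_mul_add_two (k : ℕ) : f (3 * k + 2) = 2 * 3 ^ k := by
  induction' k with k ih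
  · rfl
  · have e : 3 * (k + 1) + 2 = (3 * k) + 5 := by ring
    rw [e, f, ih]
    ring

lemma f_three_mul_add_one (k : ℕ) (hk : 1 ≤ k) : f (3 * k + 1) = 4 * 3 ^ (k - 1) := by
  obtain ⟨c, rfl⟩ := Nat.exists_eq_add_of_le' hk
  simp only [Nat.add_sub_cancel]
  induction' c with c ih
  · rfl
  · have e : 3 * (c + 1 + 1) + 1 = (3 * c + 2) + 5 := by ring
    rw [e, f]
    have e2 : 3 * c + 2 + 2 = 3 * (c + 1) + 1 := by ring
    rw [e2, ih (by omega)]
    ring

lemma h_three_mul (k : ℕ) : h (3 * k) = 3 ^ k := by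
  induction' k using Nat.strong_induction_on with k ih
  match k with
  | 0 => rfl
  | 1 => rfl
  | 2 => rfl
  | k + 3 =>
    have e : 3 * (k + 3) = (3 * k) + 9 := by ring
    rw [e, h]
    have e2 : 3 * k + 6 = 3 * (k + 2) := by ring
    rw [e2, ih (k + 2) (by omega)]
    ring

lemma h_three_mul_add_one (k : ℕ) (hk : 1 ≤ k) : h (3 * k + 1) = 4 * 3 ^ (k - 1) := by
  obtain ⟨c, rfl⟩ := Nat.exists_eq_add_of_le' hk
  simp only [Nat.add_sub_cancel]
  clear hk
  induction' c using Nat.strong_induction_on with c ih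
  match c with
  | 0 => rfl
  | 1 => rfl
  | c + 2 =>
    have e : 3 * (c + 2 + 1) + 1 = (3 * c + 1) + 9 := by ring
    rw [e, h]
    have e2 : 3 * c + 1 + 6 = 3 * (c + 1 + 1) + 1 := by ring
    rw [e2, ih (c + 1) (by omega)]
    ring

lemma h_three_mul_add_two (k : ℕ) (hk : 2 ≤ k) : h (3 * k + 2) = 16 * 3 ^ (k - 2) := by
  obtain ⟨c, rfl⟩ := Nat.exists_eq_add_of_le' hk
  simp only [Nat.add_sub_cancel]
  clear hk
  induction' c using Nat.strong_induction_on with c ih
  match c with
  | 0 => rfl
  | c + 1 =>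
    have e : 3 * (c + 1 + 2) + 2 = (3 * c + 2) + 9 := by ring
    rw [e, h]
    have e2 : 3 * c + 2 + 6 = 3 * (c + 2) + 2 := by ring
    rw [e2, ih c (by omega)]
    ring

section bound

variable {G X : Type*} [Group G] [MulAction G X] [Finite X]

/-- The fixer of an invariant set has index bounded by the orbit sizes. -/
theorem index_fixingSubgroup_le (hG : ∀ a b : G, a * b = b * a) (F : ℕ → ℕ) (allowed : ℕ → Prop)
    (hF0 : 1 ≤ F 0) (hF : ∀ o m, allowed o → o * F m ≤ F (o + m))
    (hall : ∀ x : X, allowed (orbit G x).ncard) :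
    ∀ (S : Set X), (∀ (g : G), ∀ y ∈ S, g • y ∈ S) → (fixingSubgroup G S).index ≤ F S.ncard := by
  intro S
  induction' hs : S.ncard using Nat.strong_induction_on with s ih generalizing S
  intro hS
  rcases S.eq_empty_or_nonempty with rfl | ⟨x, hx⟩
  · have : fixingSubgroup G (∅ : Set X) = ⊤ := by
      ext g
      simp [mem_fixingSubgroup_iff]
    rw [this, Subgroup.index_top]
    simp only [Set.ncard_empty] at hs
    subst hs
    exact hF0
  · set O := orbit G x with hO
    have hOS : O ⊆ S := by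
      rintro _ ⟨g, rfl⟩
      exact hS g x hx
    have hOne : O.Nonempty := ⟨x, mem_orbit_self x⟩
    set S' := S \ O with hS'
    have hS'inv : ∀ (g : G), ∀ y ∈ S', g • y ∈ S' := by
      rintro g y ⟨hy, hyO⟩
      refine ⟨hS g y hy, fun hgy => hyO ?_⟩
      have : g⁻¹ • (g • y) ∈ O := by
        obtain ⟨k, hk⟩ := hgy
        refine ⟨g⁻¹ * k, ?_⟩
        simp only [Subgroup.coe_mul] at hk ⊢
        rw [← smul_eq_mul, smul_assoc]
        show g⁻¹ • (k • x) = _
        congr 1
      simpa using this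
    have hcard : S.ncard = O.ncard + S'.ncard := by
      rw [hS', Set.ncard_sdiff hOS (Set.toFinite _)]
      have := Set.ncard_le_ncard hOS (Set.toFinite _)
      omega
    have hOpos : 0 < O.ncard := (Set.ncard_pos (Set.toFinite _)).mpr hOne
    have hfix : fixingSubgroup G S = stabilizer G x ⊓ fixingSubgroup G S' := by
      ext g
      simp only [Subgroup.mem_inf, mem_fixingSubgroup_iff, mem_stabilizer_iff]
      constructor
      · intro hg
        exact ⟨hg x hx, fun y hy => hg y hy.1⟩
      · rintro ⟨hg1, hg2⟩ y hy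
        by_cases hyO : y ∈ O
        · obtain ⟨k, rfl⟩ := hyO
          show g • (k • x) = k • x
          rw [← mul_smul, hG g k, mul_smul, hg1]
        · exact hg2 y ⟨hy, hyO⟩
    rw [hfix]
    refine Subgroup.index_inf_le.trans ?_
    rw [index_stabilizer]
    have h1 := ih S'.ncard (by omega) S' rfl hS'inv
    rw [← hs, hcard]
    exact (Nat.mul_le_mul_left _ h1).trans (hF _ _ (hall x))

end bound

section perm

variable {X : Type*} [Finite X]

lemma fixingSubgroup_univ (A : Subgroup (Perm X)) : fixingSubgroup A (Set.univ : Set X) = ⊥ := by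
  ext g
  simp only [mem_fixingSubgroup_iff, Set.mem_univ, forall_true_left, Subgroup.mem_bot]
  constructor
  · intro hg
    apply Subtype.ext
    ext y
    exact hg y
  · rintro rfl y
    simp

lemma comm_of (A : Subgroup (Perm X)) (hA : IsMulCommutative A) (a b : A) : a * b = b * a :=
  hA.is_comm.comm a b

/-- Abelian subgroups of `Sym(X)` have order at most `f |X|`. -/
theorem card_le_f (A : Subgroup (Perm X)) (hA : IsMulCommutative A) : Nat.card A ≤ f (Nat.card X) := by
  have := index_fixingSubgroup_le (G := A) (X := X) (comm_of A hA) f (fun _ => True) (by decide)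
    (fun o m _ => mul_f_le o m) (fun _ => trivial) Set.univ (fun _ _ _ => Set.mem_univ _)
  rwa [fixingSubgroup_univ, Subgroup.index_bot, Set.ncard_univ] at this

/-- An orbit of size two of a group of even permutations: the complement of the orbit has trivial fixer. -/
lemma fixing_compl_eq_bot_of_orbit_two [Fintype X] [DecidableEq X] (A : Subgroup (Perm X))
    (hAlt : ∀ a ∈ A, Perm.sign a = 1) (x : X) (hx : (orbit A x).ncard = 2) :
    fixingSubgroup A (orbit A x)ᶜ = ⊥ := by
  set O := orbit A x with hO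
  obtain ⟨a, b, hab, hOab⟩ := Set.ncard_eq_two.mp hx
  have hinv : ∀ (g : A), ∀ y ∈ O, g • y ∈ O := by
    rintro g _ ⟨k, rfl⟩
    refine ⟨g * k, ?_⟩
    show (g * k) • x = g • k • x
    rw [mul_smul]
  rw [eq_bot_iff]
  intro g hg
  rw [mem_fixingSubgroup_iff] at hg
  rw [Subgroup.mem_bot]
  have hga : (g : Perm X) a ∈ ({a, b} : Set X) := by
    rw [← hOab]
    exact hinv g a (by rw [hOab]; simp)
  have hgb : (g : Perm X) b ∈ ({a, b} : Set X) := by
    rw [← hOab]
    exact hinv g b (by rw [hOab]; simp)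
  have hout : ∀ y, y ≠ a → y ≠ b → (g : Perm X) y = y := by
    intro y h1 h2
    apply hg y
    rw [hOab]
    simp [h1, h2]
  have hinj := (g : Perm X).injective
  simp only [Set.mem_insert_iff, Set.mem_singleton_iff] at hga hgb
  rcases hga with hga | hga
  · have hgb' : (g : Perm X) b = b := by
      rcases hgb with hgb | hgb
      · exact absurd (hinj (hga.trans hgb.symm)) hab
      · exact hgb
    apply Subtype.ext
    ext y
    by_cases h1 : y = a
    · rw [h1, hga]; rfl
    by_cases h2 : y = b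
    · rw [h2, hgb']; rfl
    rw [hout y h1 h2]; rfl
  · exfalso
    have hgb' : (g : Perm X) b = a := by
      rcases hgb with hgb | hgb
      · exact hgb
      · exact absurd (hinj (hga.trans hgb.symm)) hab
    have hsw : (g : Perm X) = swap a b := by
      ext y
      by_cases h1 : y = a
      · rw [h1, hga, swap_apply_left]
      by_cases h2 : y = b
      · rw [h2, hgb', swap_apply_right]
      rw [hout y h1 h2, swap_apply_of_ne_of_ne h1 h2]
    have := hAlt g g.2
    rw [hsw, Perm.sign_swap hab] at this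
    exact absurd this (by decide)

/-- The fixer of a complement of an invariant set is bounded by `f`. -/
lemma compl_invariant {A : Subgroup (Perm X)} (x : X) :
    ∀ (g : A), ∀ y ∈ (orbit A x)ᶜ, g • y ∈ (orbit A x)ᶜ := by
  intro g y hy hgy
  apply hy
  obtain ⟨k, hk⟩ := hgy
  refine ⟨g⁻¹ * k, ?_⟩
  show (g⁻¹ * k) • x = y
  rw [mul_smul]
  have hk' : k • x = g • y := hk
  rw [hk', inv_smul_smul]

/-- With an orbit of size two, an abelian group of even permutations is bounded by `f` of the remaining points. -/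
theorem card_le_f_of_orbit_two [Fintype X] [DecidableEq X] (A : Subgroup (Perm X)) (hA : IsMulCommutative A)
    (hAlt : ∀ a ∈ A, Perm.sign a = 1) (x : X) (hx : (orbit A x).ncard = 2) :
    ∃ m, Nat.card X = m + 2 ∧ Nat.card A ≤ f m := by
  have := index_fixingSubgroup_le (G := A) (X := X) (comm_of A hA) f (fun _ => True) (by decide)
    (fun o m _ => mul_f_le o m) (fun _ => trivial) (orbit A x)ᶜ (compl_invariant x)
  rw [fixing_compl_eq_bot_of_orbit_two A hAlt x hx, Subgroup.index_bot] at this
  refine ⟨(orbit A x)ᶜ.ncard, ?_, this⟩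
  have := Set.ncard_add_ncard_compl (orbit A x) (Set.toFinite _) (Set.toFinite _)
  omega

/-- Abelian subgroups of `Alt(X)` have order at most `h |X|`. -/
theorem card_le_h [Fintype X] [DecidableEq X] (A : Subgroup (Perm X)) (hA : IsMulCommutative A)
    (hAlt : ∀ a ∈ A, Perm.sign a = 1) : Nat.card A ≤ h (Nat.card X) := by
  by_cases hall : ∀ x : X, (orbit A x).ncard ≠ 2
  · have := index_fixingSubgroup_le (G := A) (X := X) (comm_of A hA) h (fun o => o ≠ 2) (by decide)
      (fun o m ho => mul_h_le o m ho) hall Set.univ (fun _ _ _ => Set.mem_univ _)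
    rwa [fixingSubgroup_univ, Subgroup.index_bot, Set.ncard_univ] at this
  · push Not at hall
    obtain ⟨x, hx⟩ := hall
    obtain ⟨m, e, hm⟩ := card_le_f_of_orbit_two A hA hAlt x hx
    rw [e]
    exact hm.trans (f_le_h _)

end perm

section constructions

/-- An abelian subgroup of `Sym(n)` of order `c` exists. -/
def Ex (n c : ℕ) : Prop :=
  ∃ A : Subgroup (Perm (Fin n)), IsMulCommutative A ∧ Nat.card A = c

/-- An abelian subgroup of `Alt(n)` of order `c` exists. -/
def ExE (n c : ℕ) : Prop :=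
  ∃ A : Subgroup (Perm (Fin n)), IsMulCommutative A ∧ Nat.card A = c ∧ ∀ a ∈ A, Perm.sign a = 1

/-- The block sum of permutations. -/
noncomputable def sumHom (n m : ℕ) : Perm (Fin n) × Perm (Fin m) →* Perm (Fin (n + m)) :=
  (finSumFinEquiv.permCongrHom).toMonoidHom.comp (Perm.sumCongrHom (Fin n) (Fin m))

lemma sumHom_injective (n m : ℕ) : Function.Injective (sumHom n m) := by
  unfold sumHom
  simp only [MonoidHom.coe_comp]
  exact (MulEquiv.injective _).comp Perm.sumCongrHom_injective

lemma sign_sumHom (n m : ℕ) (a : Perm (Fin n) × Perm (Fin m)) :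
    Perm.sign (sumHom n m a) = Perm.sign a.1 * Perm.sign a.2 := by
  unfold sumHom
  simp only [MonoidHom.comp_apply]
  show Perm.sign (finSumFinEquiv.permCongr (Perm.sumCongrHom (Fin n) (Fin m) a)) = _
  rw [Perm.sign_permCongr]
  exact Perm.sign_sumCongr a.1 a.2

/-- The product subgroup. -/
noncomputable def prodMap {n m : ℕ} (A : Subgroup (Perm (Fin n))) (B : Subgroup (Perm (Fin m))) :
    Subgroup (Perm (Fin (n + m))) :=
  (A.prod B).map (sumHom n m)

lemma card_prodMap {n m : ℕ} (A : Subgroup (Perm (Fin n))) (B : Subgroup (Perm (Fin m))) :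
    Nat.card (prodMap A B) = Nat.card A * Nat.card B := by
  unfold prodMap
  rw [Subgroup.card_map_of_injective (sumHom_injective n m)]
  rw [Nat.card_congr (Subgroup.prodEquiv A B).toEquiv, Nat.card_prod]

lemma comm_prodMap {n m : ℕ} (A : Subgroup (Perm (Fin n))) (B : Subgroup (Perm (Fin m)))
    (hA : IsMulCommutative A) (hB : IsMulCommutative B) : IsMulCommutative (prodMap A B) := by
  refine ⟨⟨?_⟩⟩
  rintro ⟨_, ⟨x, hx, rfl⟩⟩ ⟨_, ⟨y, hy, rfl⟩⟩
  apply Subtype.ext
  show sumHom n m x * sumHom n m y = sumHom n m y * sumHom n m x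
  rw [← map_mul, ← map_mul]
  congr 1
  have h1 : x.1 * y.1 = y.1 * x.1 := by
    have := hA.is_comm.comm ⟨x.1, hx.1⟩ ⟨y.1, hy.1⟩
    exact congrArg Subtype.val this
  have h2 : x.2 * y.2 = y.2 * x.2 := by
    have := hB.is_comm.comm ⟨x.2, hx.2⟩ ⟨y.2, hy.2⟩
    exact congrArg Subtype.val this
  exact Prod.ext h1 h2

lemma Ex.add {n m c d : ℕ} (h1 : Ex n c) (h2 : Ex m d) : Ex (n + m) (c * d) := by
  obtain ⟨A, hA, rfl⟩ := h1
  obtain ⟨B, hB, rfl⟩ := h2
  exact ⟨prodMap A B, comm_prodMap A B hA hB, card_prodMap A B⟩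

lemma ExE.add {n m c d : ℕ} (h1 : ExE n c) (h2 : ExE m d) : ExE (n + m) (c * d) := by
  obtain ⟨A, hA, rfl, hAs⟩ := h1
  obtain ⟨B, hB, rfl, hBs⟩ := h2
  refine ⟨prodMap A B, comm_prodMap A B hA hB, card_prodMap A B, ?_⟩
  rintro _ ⟨x, hx, rfl⟩
  rw [sign_sumHom, hAs _ hx.1, hBs _ hx.2, one_mul]

lemma ExE.toEx {n c : ℕ} (h1 : ExE n c) : Ex n c := by
  obtain ⟨A, hA, h2, -⟩ := h1
  exact ⟨A, hA, h2⟩

lemma ExE_zero : ExE 0 1 := by
  refine ⟨⊥, ⟨⟨?_⟩⟩, by simp, ?_⟩
  · intro a b
    exact Subsingleton.elim _ _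
  · intro a ha
    rw [Subgroup.mem_bot] at ha
    simp [ha]

lemma ExE_three : ExE 3 3 := by
  let c : Perm (Fin 3) := finRotate 3
  refine ⟨Subgroup.zpowers c, inferInstance, ?_, ?_⟩
  · rw [Nat.card_zpowers]
    have h3 : c ^ 3 = 1 := by decide
    have hc : c ≠ 1 := by decide
    exact orderOf_eq_prime h3 hc
  · rintro _ ⟨k, rfl⟩
    simp only [map_zpow]
    have : Perm.sign c = 1 := by decide
    rw [this, one_zpow]

/-- The Klein four-group on four points -/
def klein : Subgroup (Perm (Fin 4)) where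
  carrier := {1, swap 0 1 * swap 2 3, swap 0 2 * swap 1 3, swap 0 3 * swap 1 2}
  mul_mem' := by
    simp only [Set.mem_insert_iff, Set.mem_singleton_iff]
    decide
  one_mem' := by
    simp
  inv_mem' := by
    simp only [Set.mem_insert_iff, Set.mem_singleton_iff]
    decide

lemma ExE_four : ExE 4 4 := by
  refine ⟨klein, ⟨⟨?_⟩⟩, ?_, ?_⟩
  · rintro ⟨a, ha⟩ ⟨b, hb⟩
    apply Subtype.ext
    revert a b
    simp only [klein, Subgroup.mem_mk, Submonoid.mem_mk, Subsemigroup.mem_mk, Set.mem_insert_iff,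
      Set.mem_singleton_iff]
    decide
  · have : Nat.card klein = Nat.card ((({1, swap 0 1 * swap 2 3, swap 0 2 * swap 1 3, swap 0 3 * swap 1 2} : Finset (Perm (Fin 4))) : Set (Perm (Fin 4)))) := by
      apply Nat.card_congr
      refine Equiv.subtypeEquivRight ?_
      intro x
      simp [klein]
    rw [this, Nat.card_coe_set_eq, Set.ncard_coe_finset]
    decide
  · rintro a ha
    revert a
    simp only [klein, Subgroup.mem_mk, Submonoid.mem_mk, Subsemigroup.mem_mk, Set.mem_insert_iff,
      Set.mem_singleton_iff]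
    decide

lemma Ex_two : Ex 2 2 := by
  refine ⟨⊤, ⟨⟨?_⟩⟩, ?_⟩
  · rintro ⟨a, -⟩ ⟨b, -⟩
    have : ∀ a b : Perm (Fin 2), a * b = b * a := by decide
    exact Subtype.ext (this a b)
  · rw [Subgroup.card_top, Nat.card_perm]
    simp

lemma ExE_three_mul (k : ℕ) : ExE (3 * k) (3 ^ k) := by
  induction' k with k ih
  · exact ExE_zero
  · have := ih.add ExE_three
    rwa [pow_succ]

end constructions

section final

variable (k : ℕ)

/-- The statement for the symmetric groups. -/
theorem isGreatest_perm_zero : IsGreatest {c : ℕ | ∃ A : Subgroup (Perm (Fin (3 * k))), IsMulCommutative A ∧ Nat.card A = c} (3 ^ k) := by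
  refine ⟨(ExE_three_mul k).toEx, ?_⟩
  rintro c ⟨A, hA, rfl⟩
  have := card_le_f A hA
  rwa [Nat.card_fin, f_three_mul] at this

theorem isGreatest_perm_one (hk : 1 ≤ k) : IsGreatest {c : ℕ | ∃ A : Subgroup (Perm (Fin (3 * k + 1))), IsMulCommutative A ∧ Nat.card A = c} (4 * 3 ^ (k - 1)) := by
  constructor
  · have := (ExE_four.add (ExE_three_mul (k - 1))).toEx
    have e : 4 + 3 * (k - 1) = 3 * k + 1 := by omega
    rwa [e] at this
  · rintro c ⟨A, hA, rfl⟩
    have := card_le_f A hA
    rwa [Nat.card_fin, f_three_mul_add_one _ hk] at this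

theorem isGreatest_perm_two : IsGreatest {c : ℕ | ∃ A : Subgroup (Perm (Fin (3 * k + 2))), IsMulCommutative A ∧ Nat.card A = c} (2 * 3 ^ k) := by
  constructor
  · have := Ex_two.add (ExE_three_mul k).toEx
    have e : 2 + 3 * k = 3 * k + 2 := by omega
    rwa [e] at this
  · rintro c ⟨A, hA, rfl⟩
    have := card_le_f A hA
    rwa [Nat.card_fin, f_three_mul_add_two] at this

/-- Passing from subgroups of `Alt(n)` to subgroups of `Sym(n)`. -/
lemma card_le_h_alt {n : ℕ} (B : Subgroup (alternatingGroup (Fin n))) (hB : IsMulCommutative B) :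
    Nat.card B ≤ h n := by
  have h1 : Nat.card (B.map (alternatingGroup (Fin n)).subtype) = Nat.card B :=
    Subgroup.card_map_of_injective (Subgroup.subtype_injective _)
  rw [← h1]
  have := card_le_h (B.map (alternatingGroup (Fin n)).subtype) ?_ ?_
  · rwa [Nat.card_fin] at this
  · refine ⟨⟨?_⟩⟩
    rintro ⟨_, ⟨x, hx, rfl⟩⟩ ⟨_, ⟨y, hy, rfl⟩⟩
    apply Subtype.ext
    have := hB.is_comm.comm ⟨x, hx⟩ ⟨y, hy⟩
    have h2 := congrArg (fun z : B => ((z : alternatingGroup (Fin n)) : Perm (Fin n))) this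
    exact h2
  · rintro _ ⟨x, -, rfl⟩
    exact x.2

lemma exists_alt_of_ExE {n c : ℕ} (H : ExE n c) :
    ∃ B : Subgroup (alternatingGroup (Fin n)), IsMulCommutative B ∧ Nat.card B = c := by
  obtain ⟨A, hA, rfl, hs⟩ := H
  have hle : A ≤ alternatingGroup (Fin n) := fun a ha => by
    rw [Perm.mem_alternatingGroup]
    exact hs a ha
  refine ⟨A.subgroupOf (alternatingGroup (Fin n)), ⟨⟨?_⟩⟩, ?_⟩
  · rintro ⟨a, ha⟩ ⟨b, hb⟩
    apply Subtype.ext
    apply Subtype.ext
    have := hA.is_comm.comm ⟨a.1, ha⟩ ⟨b.1, hb⟩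
    show a.1 * b.1 = b.1 * a.1
    exact congrArg Subtype.val this
  · exact Nat.card_congr (Subgroup.subgroupOfEquivOfLe hle).toEquiv

theorem isGreatest_alt_zero : IsGreatest {c : ℕ | ∃ A : Subgroup (alternatingGroup (Fin (3 * k))), IsMulCommutative A ∧ Nat.card A = c} (3 ^ k) := by
  refine ⟨exists_alt_of_ExE (ExE_three_mul k), ?_⟩
  rintro c ⟨A, hA, rfl⟩
  have := card_le_h_alt A hA
  rwa [h_three_mul] at this

theorem isGreatest_alt_one (hk : 1 ≤ k) : IsGreatest {c : ℕ | ∃ A : Subgroup (alternatingGroup (Fin (3 * k + 1))), IsMulCommutative A ∧ Nat.card A = c} (4 * 3 ^ (k - 1)) := by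
  constructor
  · have := ExE_four.add (ExE_three_mul (k - 1))
    have e : 4 + 3 * (k - 1) = 3 * k + 1 := by omega
    rw [e] at this
    exact exists_alt_of_ExE this
  · rintro c ⟨A, hA, rfl⟩
    have := card_le_h_alt A hA
    rwa [h_three_mul_add_one _ hk] at this

theorem isGreatest_alt_two (hk : 2 ≤ k) : IsGreatest {c : ℕ | ∃ A : Subgroup (alternatingGroup (Fin (3 * k + 2))), IsMulCommutative A ∧ Nat.card A = c} (16 * 3 ^ (k - 2)) := by
  constructor
  · have := (ExE_four.add ExE_four).add (ExE_three_mul (k - 2))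
    have e : 4 + 4 + 3 * (k - 2) = 3 * k + 2 := by omega
    rw [e] at this
    exact exists_alt_of_ExE this
  · rintro c ⟨A, hA, rfl⟩
    have := card_le_h_alt A hA
    rwa [h_three_mul_add_two _ hk] at this

end final

end Cfsg.Agent.Lib.PermAb.Max
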